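import Mathlib
import Cfsg.Agent.Lib.Helper83.SnB.Q8MDefs

/-!
S2986, package [Q8-M], sub-package [M-CP] (helper95): `C_Q(z) ≤ Z`, `K` centralizes `C_P(z)`,
and `P = Q C_P(z)`.
-/

set_option autoImplicit false

namespace Cfsg.Agent.Lib.Helper95.SnB

open Cfsg Cfsg.Agent.Lib.Helper41.SnB Cfsg.Agent.Lib.Helper34.SnB Cfsg.Agent.Lib.Helper83.SnB

universe u

variable {G : Type u} [Group G]

/-- An element with `a * a = 1` and `a ^ 3 = 1` is trivial. -/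
theorem eq_one_of_sq_of_cube {a : G} (h2 : a * a = 1) (h3 : a ^ 3 = 1) : a = 1 := by
  have h : a ^ 3 = a * a * a := by rw [pow_succ, pow_two]
  rw [h, h2, one_mul] at h3
  exact h3

/-- `C_Q(z) ≤ Z`. -/
theorem cp_part1 [Finite G] {p : ℕ} [Fact p.Prime] (S₀ X K : Subgroup G) (z : G)
    (bf : BF p X) (q8 : Q8S p S₀ X K z) (b1 : OB1 p X K z)
    (alt : Alt p S₀ X K z) : ∀ u ∈ Qb p X, z * u = u * z → u ∈ Zb p X := by
  intro u hu hzu
  have hzX : z ∈ X := q8.KX q8.zK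
  rcases alt with ⟨hQA, -, -⟩ | xb
  · have huA : u ∈ Ab p X := hQA ▸ hu
    have hinv := q8.invA u huA
    have h1 : u⁻¹ = u := by
      rw [← hinv, hzu]; group
    have h2 : u * u = 1 := by
      nth_rewrite 1 [← h1]; group
    have h3 : u ^ 3 = 1 := b1.W3 u (bf.AW huA)
    rw [eq_one_of_sq_of_cube h2 h3]
    exact Subgroup.one_mem _
  · have huu : u * u ∈ Wb p X := by
      have h := xb.exc.invQ u hu
      have e : z * u * z⁻¹ * u = u * u := by rw [hzu]; group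
      rwa [e] at h
    have huW : u ∈ Wb p X := xb.sqW u hu huu
    obtain ⟨a, ha, ζ, hζ, rfl⟩ := bf.WAZ u huW
    have hζc : ζ * z = z * ζ := bf.ZC ζ hζ z hzX
    have hinv := q8.invA a ha
    have h1 : a⁻¹ = a := by
      have h : z * a * z⁻¹ = a := by
        have e1 : z * a * z⁻¹ = (z * (a * ζ)) * (z * ζ)⁻¹ := by group
        rw [e1, hzu, ← hζc]; group
      rw [← hinv, h]
    have h2 : a * a = 1 := by
      nth_rewrite 1 [← h1]; group
    have h3 : a ^ 3 = 1 := b1.W3 a (bf.AW ha)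
    rw [eq_one_of_sq_of_cube h2 h3, one_mul]
    exact hζ

/-- `K` centralizes `C_P(z)`. -/
theorem cp_part2 [Finite G] {p : ℕ} [Fact p.Prime] (S₀ X K : Subgroup G) (z : G)
    (gf : GF p S₀) (sb : SBlk p X) (bf : BF p X) (q8 : Q8S p S₀ X K z) (b1 : OB1 p X K z)
    (h1 : ∀ u ∈ Qb p X, z * u = u * z → u ∈ Zb p X) :
    ∀ c ∈ pCore p G, z * c = c * z → ∀ k ∈ K, k * c = c * k := by
  intro c hc hzc k hk
  have hkX : k ∈ X := q8.KX hk
  have hzX : z ∈ X := q8.KX q8.zK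
  have hzk : Commute z k := q8.zc k hk
  have key := coprimeChain (pCore p G ⊓ Subgroup.centralizer {z}) (Zb p X) k
    (fun h hh => gf.Pp h hh.1) ⟨3, by simpa using b1.K8 k hk⟩
    (by
      intro ζ hζ
      refine ⟨sb.QP (bf.WQ hζ.1), Subgroup.mem_centralizer_iff.mpr ?_⟩
      intro w hw
      rw [Set.mem_singleton_iff] at hw
      subst hw
      exact (bf.ZC ζ hζ w hzX).symm)
    (fun ζ hζ => (bf.ZC ζ hζ k hkX).symm)
    (by
      intro h hh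
      have hhP : h ∈ pCore p G := hh.1
      have hzh : Commute z h := Subgroup.mem_centralizer_iff.mp hh.2 z rfl
      refine h1 _ (b1.PXQ k hkX h hhP) ?_
      exact (((hzk.mul_right hzh).mul_right hzk.inv_right).mul_right hzh.inv_right).eq)
  refine key c ⟨hc, Subgroup.mem_centralizer_iff.mpr ?_⟩
  intro w hw
  rw [Set.mem_singleton_iff] at hw
  subst hw
  exact hzc

/-- `P = Q C_P(z)`. -/
theorem cp_part3 [Finite G] {p : ℕ} [Fact p.Prime] (S₀ X K : Subgroup G) (z : G)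
    (gf : GF p S₀) (sb : SBlk p X) (q8 : Q8S p S₀ X K z) (b1 : OB1 p X K z) :
    ∀ c ∈ pCore p G, ∃ u ∈ Qb p X, ∃ c₁ ∈ pCore p G, c = u * c₁ ∧ z * c₁ = c₁ * z := by
  intro c hc
  have hzX : z ∈ X := q8.KX q8.zK
  have hzinv : z⁻¹ = z := inv_eq_of_mul_eq_one_left q8.zz
  obtain ⟨y, hy⟩ : ∃ y, y = z * c * z⁻¹ * c⁻¹ := ⟨_, rfl⟩
  have hyQ : y ∈ Qb p X := hy ▸ b1.PXQ z hzX c hc
  have hinv : z * y * z⁻¹ = y⁻¹ := by
    have e1 : z * y * z⁻¹ = (z * z) * c * z⁻¹ * c⁻¹ * z⁻¹ := by rw [hy]; group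
    have e2 : y⁻¹ = c * z * c⁻¹ * z⁻¹ := by rw [hy]; group
    rw [e1, e2, q8.zz, hzinv, one_mul]
  obtain ⟨n, hn⟩ := gf.Pp y (sb.QP hyQ)
  have hodd : 3 ^ n % 2 = 1 := by
    have : Odd (3 ^ n) := Odd.pow (by decide)
    exact Nat.odd_iff.mp this
  obtain ⟨m, hm⟩ : ∃ m, m + m = 3 ^ n + 1 := ⟨(3 ^ n + 1) / 2, by omega⟩
  obtain ⟨u, hu⟩ : ∃ u, u = y ^ m := ⟨_, rfl⟩
  have huQ : u ∈ Qb p X := hu ▸ (Qb p X).pow_mem hyQ m
  have huu : u * u = y := by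
    rw [hu, ← pow_add, hm, pow_succ, hn, one_mul]
  have hzu : z * u * z⁻¹ = u⁻¹ := by
    rw [hu, ← conj_pow, hinv, inv_pow]
  refine ⟨u⁻¹, (Qb p X).inv_mem huQ, u * c, (pCore p G).mul_mem (sb.QP huQ) hc, by group, ?_⟩
  calc z * (u * c) = (z * u * z⁻¹) * (z * c * z⁻¹ * c⁻¹) * c * z := by group
    _ = u⁻¹ * y * c * z := by rw [hzu, ← hy]
    _ = u⁻¹ * (u * u) * c * z := by rw [huu]
    _ = u * c * z := by group

/-- [M-CP] -/
theorem pkgCP : PkgCP.{u} := by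
  intro G _ _ p _ S₀ X K z gf sb bf q8 b1 alt
  have h1 := cp_part1 S₀ X K z bf q8 b1 alt
  exact ⟨h1, cp_part2 S₀ X K z gf sb bf q8 b1 h1, cp_part3 S₀ X K z gf sb q8 b1⟩

end Cfsg.Agent.Lib.Helper95.SnB
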